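import Cfsg.Agent.H45.XL.Two

/-!
# S4791 + S4927, `PSL_n` : the value of the functional, all cases (helper45)

`FV_label` : `e` the order of `q` modulo `p`, `n = e w + s`, `s < e`, `w ≥ 1`, `n ≥ 3`.
-/

set_option autoImplicit false
set_option linter.unusedSectionVars false

namespace Cfsg.Agent.H45.XL

open scoped MatrixGroups
open Finset Module Cfsg.Agent.H614 Cfsg.Agent.H87.FlagsGL Cfsg.Agent.H583.BR Cfsg.Agent.H963.XZ
open Cfsg.Agent.ClassicalGeometry.AutPSL.Root Cfsg.Agent.H674.XZ Cfsg Matrix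

variable {F : Type} [Field F] [Fintype F] {p : ℕ}

theorem not_dvd_card_of_ne [hp : Fact p.Prime] (hpF : (p : F) ≠ 0) : ¬ p ∣ Fintype.card F := by
  intro h
  obtain ⟨r, hr⟩ := CharP.exists F
  obtain ⟨k, hr', hk⟩ := FiniteField.card F r
  rw [hk] at h
  have h1 : p = r := (Nat.prime_dvd_prime_iff_eq hp.out hr').1 (hp.out.dvd_of_dvd_pow h)
  apply hpF
  rw [h1, CharP.cast_eq_zero]

theorem dvd_sub_one_iff [hp : Fact p.Prime] : p ∣ Fintype.card F - 1 ↔ orderOf ((Fintype.card F : ℕ) : ZMod p) = 1 := by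
  rw [orderOf_eq_one_iff, ← ZMod.natCast_eq_zero_iff, Nat.cast_sub Fintype.card_pos, Nat.cast_one, sub_eq_zero]

/-- **The value of the functional on the flag combination with the label `β`.** -/
theorem FV_label [hp : Fact p.Prime] {M : Ideal AlgInt} (hM : IsPModular p M) (hpF : (p : F) ≠ 0) {n e w s : ℕ}
    (he : orderOf ((Fintype.card F : ℕ) : ZMod p) = e) (hn : n = e * w + s) (hs : s < e) (h3 : 3 ≤ n)
    (β : Fin n → ℕ) (hβ : ∑ i, β i = n + ∑ i : Fin n, (i : ℕ)) (c : ℤ)
    (hc : ∀ A, Tail p n s A → (Dp e)^[w] A β = (c : ZMod p)) :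
    FV p M (fun g : ProjectiveSpecialLinearGroup (Fin n) F => ((T (flg n F) (cc β hβ) g : ℤ) : ℂ)) c := by
  rcases Nat.lt_or_ge e 2 with h2 | h2
  · have he1 : e = 1 := by omega
    subst he1
    have hs0 : s = 0 := by omega
    subst hs0
    have hw : w = n := by omega
    subst hw
    exact FV_label_one hM (dvd_sub_one_iff.2 he) h3 β hβ c hc
  · have hq : ¬ p ∣ Fintype.card F - 1 := by
      rw [dvd_sub_one_iff, he]
      omega
    obtain ⟨z, hz, hz1⟩ := exists_irr he (by omega)
    have hfr : finrank F (Vec F n) = finrank F (Md F w e s) := by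
      have h4 : finrank F (Md F w e s) = w * e + s := by
        rw [Module.finrank_prod, Module.finrank_pi_fintype]
        simp only [Module.finrank_fintype_fun_eq_card, Fintype.card_fin, Finset.sum_const, Finset.card_univ, smul_eq_mul]
      rw [finrank_vec, h4, mul_comm w e]
      exact hn
    let e0 : Vec F n ≃ₗ[F] Md F w e s := LinearEquiv.ofFinrankEq _ _ hfr
    exact FV_of_Q hM (by omega) (qdata_two e0 (not_dvd_card_of_ne hpF) he (by omega) hq hz hz1) hs β hβ c hc

end Cfsg.Agent.H45.XL
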