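import Cfsg.Agent.H45.XL.One
import Cfsg.Agent.H45.XL.Irr

/-!
# S4791 + S4927, `PSL_n` : `p` does not divide `q - 1` (helper45)

`F^n = E^w ⊕ E0`, `dim E = e` the order of `q` modulo `p`; `Q` : the elements `(z^(x 1), …, z^(x w), 1)`, `z` of order `p`.
-/

set_option autoImplicit false
set_option linter.unusedSectionVars false

namespace Cfsg.Agent.H45.XL

open scoped MatrixGroups Pointwise
open Finset Module Matrix MulAction Cfsg.Agent.H614 Cfsg.Agent.H87.Flags Cfsg.Agent.H87.FlagsGL
open Cfsg.Agent.H583.BR Cfsg.Agent.H963.XZ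
open Cfsg.Agent.ClassicalGeometry.AutPSL.Root Cfsg.Agent.H674.XZ Cfsg

variable {F : Type} [Field F] [Fintype F] {n : ℕ} {w e s0 p : ℕ}

/-- the model -/
abbrev Md (F : Type) (w e s0 : ℕ) : Type := (Fin w → Fin e → F) × (Fin s0 → F)

/-- the operator `(z^(x 1), …, z^(x w), 1)` -/
noncomputable def Dx (s0 : ℕ) (z : End F (Fin e → F)) (x : Fin w → ℕ) : End F (Md F w e s0) where
  toFun v := (fun i => (z ^ x i) (v.1 i), v.2)
  map_add' u v := by
    refine Prod.ext (funext fun i => ?_) rfl
    exact map_add (z ^ x i) (u.1 i) (v.1 i)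
  map_smul' c v := by
    refine Prod.ext (funext fun i => ?_) rfl
    exact map_smul (z ^ x i) c (v.1 i)

theorem Dx_fst (z : End F (Fin e → F)) (x : Fin w → ℕ) (v : Md F w e s0) (i : Fin w) :
    (Dx s0 z x v).1 i = (z ^ x i) (v.1 i) := rfl

theorem Dx_snd (z : End F (Fin e → F)) (x : Fin w → ℕ) (v : Md F w e s0) : (Dx s0 z x v).2 = v.2 := rfl

theorem Dx_add (z : End F (Fin e → F)) (x y : Fin w → ℕ) (v : Md F w e s0) : Dx s0 z (x + y) v = Dx s0 z x (Dx s0 z y v) := by
  refine Prod.ext (funext fun i => ?_) rfl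
  change (z ^ (x i + y i)) (v.1 i) = _
  rw [pow_add]
  rfl

theorem Dx_mul {z : End F (Fin e → F)} (hz : z ^ p = 1) (x : Fin w → ℕ) (v : Md F w e s0) :
    Dx s0 z (fun i => p * x i) v = v := by
  refine Prod.ext (funext fun i => ?_) rfl
  change (z ^ (p * x i)) (v.1 i) = _
  rw [pow_mul, hz, one_pow]
  rfl

theorem Dx_zero {z : End F (Fin e → F)} (v : Md F w e s0) : Dx s0 z (0 : Fin w → ℕ) v = v := rfl

variable (e0 : Vec F n ≃ₗ[F] Md F w e s0)

/-- the group -/
noncomputable def Q2 {p : ℕ} (hp0 : 0 < p) {z : End F (Fin e → F)} (hz : z ^ p = 1) : Subgroup (SpecialLinearGroup (Fin n) F) where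
  carrier := {t | ∃ x : Fin w → ℕ, ∀ v, e0 (t • v) = Dx s0 z x (e0 v)}
  one_mem' := ⟨0, fun v => by rw [one_smul, Dx_zero]⟩
  mul_mem' := by
    rintro t u ⟨x, hx⟩ ⟨y, hy⟩
    exact ⟨x + y, fun v => by rw [mul_smul, hx, hy, Dx_add]⟩
  inv_mem' := by
    rintro t ⟨x, hx⟩
    refine ⟨fun i => (p - 1) * x i, fun v => ?_⟩
    have h1 := hx (t⁻¹ • v)
    rw [smul_inv_smul] at h1
    rw [h1, ← Dx_add]
    have h2 : ((fun i => (p - 1) * x i) + x : Fin w → ℕ) = fun i => p * x i := by
      funext i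
      change (p - 1) * x i + x i = p * x i
      obtain ⟨k, rfl⟩ : ∃ k, p = k + 1 := ⟨p - 1, by omega⟩
      rw [Nat.add_sub_cancel]
      ring
    rw [h2, Dx_mul hz]

theorem mem_Q2 {p : ℕ} {hp0 : 0 < p} {z : End F (Fin e → F)} {hz : z ^ p = 1} {t : SpecialLinearGroup (Fin n) F} :
    t ∈ Q2 e0 hp0 hz ↔ ∃ x : Fin w → ℕ, ∀ v, e0 (t • v) = Dx s0 z x (e0 v) := Iff.rfl

theorem eq_one_of_smul {t : SpecialLinearGroup (Fin n) F} (h : ∀ v : Vec F n, t • v = v) : t = 1 := by
  apply Subtype.ext
  ext i j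
  have h1 := congrArg (fun v => co v i) (h (ev n F j))
  simp only [co_smul', co_ev] at h1
  rw [Matrix.mulVec_single_one] at h1
  change (t : Matrix (Fin n) (Fin n) F) i j = (1 : Matrix (Fin n) (Fin n) F) i j
  rw [Matrix.one_apply]
  have h2 : (t : Matrix (Fin n) (Fin n) F).col j i = (Pi.single j (1 : F) : Fin n → F) i := h1
  rw [Matrix.col_apply] at h2
  rw [h2, Pi.single_apply]

theorem isPGroup_Q2 [hp : Fact p.Prime] {z : End F (Fin e → F)} (hz : z ^ p = 1) :
    IsPGroup p (Q2 e0 hp.out.pos hz) := by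
  rintro ⟨t, x, hx⟩
  refine ⟨1, Subtype.ext ?_⟩
  change t ^ p ^ 1 = 1
  rw [pow_one]
  apply eq_one_of_smul
  have h1 : ∀ (k : ℕ) (v : Vec F n), e0 (t ^ k • v) = Dx s0 z (fun i => k * x i) (e0 v) := by
    intro k
    induction k with
    | zero =>
      intro v
      rw [pow_zero, one_smul]
      have h2 : (fun i => 0 * x i) = (0 : Fin w → ℕ) := by funext i; simp
      rw [h2, Dx_zero]
    | succ k ih =>
      intro v
      rw [pow_succ', mul_smul, hx, ih, ← Dx_add]
      congr 1
      congr 1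
      funext i
      change x i + k * x i = (k + 1) * x i
      ring
  intro v
  apply e0.injective
  rw [h1, Dx_mul hz]

/-- the generators -/
theorem exists_gen [hp : Fact p.Prime] (hq : ¬ p ∣ Fintype.card F - 1) {z : End F (Fin e → F)} (hz : z ^ p = 1) (j : Fin w) :
    ∃ t ∈ Q2 e0 hp.out.pos hz, ∀ v, e0 (t • v) = Dx s0 z (Pi.single j 1) (e0 v) := by
  classical
  have hinv : ∀ (x : Fin w → ℕ) (v : Md F w e s0), Dx s0 z (fun i => (p - 1) * x i) (Dx s0 z x v) = v ∧
      Dx s0 z x (Dx s0 z (fun i => (p - 1) * x i) v) = v := by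
    intro x v
    have h2 : ((fun i => (p - 1) * x i) + x : Fin w → ℕ) = fun i => p * x i := by
      funext i
      change (p - 1) * x i + x i = p * x i
      obtain ⟨k, hk⟩ : ∃ k, p = k + 1 := ⟨p - 1, by have := hp.out.pos; omega⟩
      rw [hk, Nat.add_sub_cancel]
      ring
    rw [← Dx_add, ← Dx_add, h2, add_comm, h2, Dx_mul hz]
    exact ⟨rfl, rfl⟩
  let D : Md F w e s0 ≃ₗ[F] Md F w e s0 := LinearEquiv.ofLinearMap (Dx s0 z (Pi.single j 1)) (Dx s0 z (fun i => (p - 1) * (Pi.single j 1 : Fin w → ℕ) i))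
    (LinearMap.ext fun v => (hinv _ v).2) (LinearMap.ext fun v => (hinv _ v).1)
  obtain ⟨g, hg⟩ := exists_gl ((e0.trans D).trans e0.symm)
  have hg' : ∀ v, e0 (g • v) = Dx s0 z (Pi.single j 1) (e0 v) := by
    intro v
    rw [hg]
    exact e0.apply_symm_apply _
  -- the determinant
  have hgp : ∀ (k : ℕ) (v : Vec F n), e0 (g ^ k • v) = Dx s0 z (fun i => k * (Pi.single j 1 : Fin w → ℕ) i) (e0 v) := by
    intro k
    induction k with
    | zero =>
      intro v
      rw [pow_zero, one_smul]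
      have h2 : (fun i => 0 * (Pi.single j 1 : Fin w → ℕ) i) = (0 : Fin w → ℕ) := by funext i; simp
      rw [h2, Dx_zero]
    | succ k ih =>
      intro v
      rw [pow_succ', mul_smul, hg', ih, ← Dx_add]
      congr 1
      congr 1
      funext i
      change (Pi.single j 1 : Fin w → ℕ) i + k * (Pi.single j 1 : Fin w → ℕ) i = (k + 1) * (Pi.single j 1 : Fin w → ℕ) i
      ring
  have hgp1 : g ^ p = 1 := by
    apply Units.ext
    ext i j
    have h1 : g ^ p • ev n F j = ev n F j := by
      apply e0.injective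
      rw [hgp, Dx_mul hz]
    have h2 := congrArg (fun v => co v i) h1
    simp only [co_smul, co_ev] at h2
    rw [Matrix.mulVec_single_one, Matrix.col_apply] at h2
    rw [h2, Units.val_one, Matrix.one_apply, Pi.single_apply]
  have hdet : GeneralLinearGroup.det g = 1 := by
    have h1 : (GeneralLinearGroup.det g) ^ p = 1 := by rw [← map_pow, hgp1, map_one]
    have h2 : orderOf (GeneralLinearGroup.det g) ∣ p := orderOf_dvd_of_pow_eq_one h1
    have h3 : orderOf (GeneralLinearGroup.det g) ∣ Fintype.card F - 1 := by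
      rw [← Fintype.card_units]
      exact orderOf_dvd_card
    rcases (Nat.dvd_prime hp.out).1 h2 with h4 | h4
    · exact orderOf_eq_one_iff.1 h4
    · exact absurd (h4 ▸ h3) hq
  obtain ⟨t, ht⟩ := exists_toGL hdet
  have ht' : ∀ v : Vec F n, t • v = g • v := fun v => by rw [sl_smul_eq, ht]
  exact ⟨t, (mem_Q2 e0).2 ⟨_, fun v => by rw [ht', hg']⟩, fun v => by rw [ht', hg']⟩

/-- a block -/
def bl (j : ℕ) : Submodule F (Vec F n) where
  carrier := {v | (e0 v).2 = 0 ∧ ∀ i : Fin w, (i : ℕ) ≠ j → (e0 v).1 i = 0}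
  add_mem' := by
    rintro v u ⟨h1, h2⟩ ⟨h3, h4⟩
    refine ⟨?_, fun i hi => ?_⟩
    · rw [map_add, Prod.snd_add, h1, h3, add_zero]
    · rw [map_add, Prod.fst_add, Pi.add_apply, h2 i hi, h4 i hi, add_zero]
  zero_mem' := by
    refine ⟨?_, fun i _ => ?_⟩
    · rw [map_zero, Prod.snd_zero]
    · rw [map_zero, Prod.fst_zero, Pi.zero_apply]
  smul_mem' := by
    rintro c v ⟨h1, h2⟩
    refine ⟨?_, fun i hi => ?_⟩
    · rw [map_smul, Prod.smul_snd, h1, smul_zero]
    · rw [map_smul, Prod.smul_fst, Pi.smul_apply, h2 i hi, smul_zero]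

/-- the first blocks and the rest -/
def cl (j : ℕ) : Submodule F (Vec F n) where
  carrier := {v | ∀ i : Fin w, j ≤ (i : ℕ) → (e0 v).1 i = 0}
  add_mem' := by
    intro v u h2 h4 i hi
    rw [map_add, Prod.fst_add, Pi.add_apply, h2 i hi, h4 i hi, add_zero]
  zero_mem' := by
    intro i _
    rw [map_zero, Prod.fst_zero, Pi.zero_apply]
  smul_mem' := by
    intro c v h2 i hi
    rw [map_smul, Prod.smul_fst, Pi.smul_apply, h2 i hi, smul_zero]

theorem mem_bl {j : ℕ} {v : Vec F n} : v ∈ bl e0 j ↔ (e0 v).2 = 0 ∧ ∀ i : Fin w, (i : ℕ) ≠ j → (e0 v).1 i = 0 := Iff.rfl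

theorem mem_cl {j : ℕ} {v : Vec F n} : v ∈ cl e0 j ↔ ∀ i : Fin w, j ≤ (i : ℕ) → (e0 v).1 i = 0 := Iff.rfl

theorem sg_same {k : ℕ} (j : Fin w) (u : Fin k → F) : (Pi.single j u : Fin w → Fin k → F) j = u := by simp

theorem sg_ne {k : ℕ} {i j : Fin w} (h : i ≠ j) (u : Fin k → F) : (Pi.single j u : Fin w → Fin k → F) i = 0 := by
  simp [h]

/-- the vector in the block -/
def bv (j : Fin w) (u : Fin e → F) : Vec F n := e0.symm (Pi.single j u, 0)

theorem e0_bv (j : Fin w) (u : Fin e → F) : e0 (bv e0 j u) = (Pi.single j u, 0) := e0.apply_symm_apply _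

theorem bv_mem (j : Fin w) (u : Fin e → F) : bv e0 j u ∈ bl e0 j := by
  rw [mem_bl, e0_bv]
  exact ⟨rfl, fun i hi => sg_ne (fun h => hi (congrArg Fin.val h)) u⟩

theorem eq_bv {j : Fin w} {v : Vec F n} (hv : v ∈ bl e0 j) : v = bv e0 j ((e0 v).1 j) := by
  apply e0.injective
  rw [e0_bv]
  refine Prod.ext (funext fun i => ?_) hv.1
  by_cases h : i = j
  · subst h
    exact (sg_same i _).symm
  · rw [hv.2 i fun e => h (Fin.ext e)]
    exact (sg_ne h _).symm

theorem finrank_bl (j : Fin w) : finrank F (bl e0 j) = e := by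
  let g : (Fin e → F) ≃ₗ[F] bl e0 j :=
    { toFun := fun u => ⟨bv e0 j u, bv_mem e0 j u⟩
      invFun := fun v => (e0 v.1).1 j
      map_add' := fun u v => by
        apply Subtype.ext
        change bv e0 j (u + v) = bv e0 j u + bv e0 j v
        apply e0.injective
        rw [map_add, e0_bv, e0_bv, e0_bv, Prod.mk_add_mk, ← Pi.single_add, add_zero]
      map_smul' := fun c u => by
        apply Subtype.ext
        change bv e0 j (c • u) = c • bv e0 j u
        apply e0.injective
        rw [map_smul, e0_bv, e0_bv, Prod.smul_mk, ← Pi.single_smul, smul_zero]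
      left_inv := fun u => by
        change (e0 (bv e0 j u)).1 j = u
        rw [e0_bv]
        exact sg_same j u
      right_inv := fun v => Subtype.ext (eq_bv e0 v.2).symm }
  rw [← g.finrank_eq, Module.finrank_fintype_fun_eq_card, Fintype.card_fin]

theorem VV_bl {j : ℕ} (hj : j ≤ w) : VV (cl e0 0) (bl e0) j = cl e0 j := by
  induction j with
  | zero => rfl
  | succ j ih =>
    change VV (cl e0 0) (bl e0) j ⊔ bl e0 j = _
    rw [ih (by omega)]
    apply le_antisymm
    · refine sup_le (fun v hv i hi => hv i (by omega)) fun v hv i hi => hv.2 i (by omega)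
    · intro v hv
      let k : Fin w := ⟨j, by omega⟩
      let u : Vec F n := bv e0 k ((e0 v).1 k)
      have h1 : v = (v - u) + u := (sub_add_cancel v u).symm
      rw [h1]
      refine Submodule.add_mem_sup ?_ (bv_mem e0 k _)
      intro i hi
      rw [map_sub, Prod.fst_sub, Pi.sub_apply]
      change (e0 v).1 i - (e0 (bv e0 k ((e0 v).1 k))).1 i = 0
      rw [e0_bv]
      by_cases h : i = k
      · subst h
        change (e0 v).1 k - (Pi.single k ((e0 v).1 k) : Fin w → Fin e → F) k = 0
        rw [Pi.single_eq_same, sub_self]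
      · change (e0 v).1 i - (Pi.single k ((e0 v).1 k) : Fin w → Fin e → F) i = 0
        rw [Pi.single_eq_of_ne h, sub_zero]
        refine hv i ?_
        have h2 : (i : ℕ) ≠ j := fun e => h (Fin.ext e)
        omega

theorem finrank_cl_zero : finrank F (cl e0 0) = s0 := by
  let g : (Fin s0 → F) ≃ₗ[F] cl e0 0 :=
    { toFun := fun u => ⟨e0.symm (0, u), fun i _ => by rw [e0.apply_symm_apply]; rfl⟩
      invFun := fun v => (e0 v.1).2
      map_add' := fun u v => by
        apply Subtype.ext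
        change e0.symm (0, u + v) = e0.symm (0, u) + e0.symm (0, v)
        rw [← map_add, Prod.mk_add_mk, add_zero]
      map_smul' := fun c u => by
        apply Subtype.ext
        change e0.symm (0, c • u) = c • e0.symm (0, u)
        rw [← map_smul, Prod.smul_mk, smul_zero]
      left_inv := fun u => by
        change (e0 (e0.symm (0, u))).2 = u
        rw [e0.apply_symm_apply]
      right_inv := fun v => by
        apply Subtype.ext
        change e0.symm (0, (e0 v.1).2) = v.1
        apply e0.injective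
        rw [e0.apply_symm_apply]
        exact Prod.ext (funext fun i => (v.2 i (Nat.zero_le _)).symm) rfl }
  rw [← g.finrank_eq, Module.finrank_fintype_fun_eq_card, Fintype.card_fin]

/-- **`e ≥ 2`** -/
theorem qdata_two [hp : Fact p.Prime] (hpF : ¬ p ∣ Fintype.card F) (he : orderOf ((Fintype.card F : ℕ) : ZMod p) = e)
    (he0 : 0 < e) (hq : ¬ p ∣ Fintype.card F - 1) {z : End F (Fin e → F)} (hz : z ^ p = 1) (hz1 : z ≠ 1) :
    QData p (Q2 e0 hp.out.pos hz) w e s0 where
  pg := isPGroup_Q2 e0 hz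
  blocks := by
    intro s hs
    have hE : finrank F (Fin e → F) = e := by rw [Module.finrank_fintype_fun_eq_card, Fintype.card_fin]
    have hker := ker_eq_bot hpF he hz hz1 hE
    have hinj : ∀ u : Fin e → F, z u - u = 0 → u = 0 := by
      intro u hu
      have h1 : u ∈ LinearMap.ker (z - 1) := by
        rw [LinearMap.mem_ker, LinearMap.sub_apply]
        exact hu
      rwa [hker, Submodule.mem_bot] at h1
    have hsur : ∀ u : Fin e → F, ∃ u', z u' - u' = u := by
      have h1 : Function.Injective (z - 1 : End F (Fin e → F)) := LinearMap.ker_eq_bot.1 hker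
      intro u
      obtain ⟨u', hu'⟩ := (LinearMap.injective_iff_surjective.1 h1) u
      exact ⟨u', hu'⟩
    choose t ht htv using exists_gen e0 hq hz
    let f : ℕ → Module.End F (Vec F n) := fun j => if h : j < w then lm (t ⟨j, h⟩) - 1 else 0
    have hfj : ∀ (j : Fin w) (v : Vec F n), f j v = t j • v - v := by
      intro j v
      change (if h : (j : ℕ) < w then lm (t ⟨j, h⟩) - 1 else 0) v = _
      rw [dif_pos j.2]
      rfl
    have hf1 : ∀ (j : Fin w) (v : Vec F n) (i : Fin w), (e0 (f j v)).1 i = if i = j then z ((e0 v).1 i) - (e0 v).1 i else 0 := by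
      intro j v i
      rw [hfj, map_sub, htv, Prod.fst_sub, Pi.sub_apply, Dx_fst]
      by_cases h : i = j
      · rw [if_pos h, h, Pi.single_eq_same, pow_one]
      · rw [if_neg h, Pi.single_eq_of_ne h, pow_zero]
        exact sub_self _
    have hf2 : ∀ (j : Fin w) (v : Vec F n), (e0 (f j v)).2 = 0 := by
      intro j v
      rw [hfj, map_sub, htv, Prod.snd_sub, Dx_snd, sub_self]
    have hfm : ∀ (j : Fin w) (v : Vec F n), f j v ∈ bl e0 j := fun j v =>
      ⟨hf2 j v, fun i hi => by rw [hf1, if_neg fun h => hi (congrArg Fin.val h)]⟩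
    have hcomm : ∀ (j : Fin w) (v : Vec F n), f j (lm s v) = lm s (f j v) := by
      intro j v
      rw [hfj, hfj, map_sub, lm_apply, lm_apply, ← mul_smul, ← mul_smul, hs _ (ht j)]
    have hzero : ∀ (j : Fin w) (v : Vec F n), (e0 v).1 j = 0 ↔ f j v = 0 := by
      intro j v
      constructor
      · intro h
        apply e0.injective
        rw [map_zero]
        refine Prod.ext (funext fun i => ?_) (hf2 j v)
        rw [hf1]
        by_cases hi : i = j
        · rw [if_pos hi, hi, h, map_zero, sub_zero]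
          rfl
        · rw [if_neg hi]
          rfl
      · intro h
        have h1 := hf1 j v j
        rw [h, map_zero, if_pos rfl] at h1
        exact hinj _ h1.symm
    have hstb : ∀ j : Fin w, bl e0 j ∈ St (lms (Q2 e0 hp.out.pos hz) ∪ {lm s}) := by
      intro j g hg v hv
      rcases hg with ⟨x, ⟨y, hy⟩, rfl⟩ | hg
      · change x • v ∈ _
        rw [mem_bl, hy]
        exact ⟨hv.1, fun i hi => by rw [Dx_fst, hv.2 i hi, map_zero]⟩
      · rw [Set.mem_singleton_iff] at hg
        rw [hg]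
        obtain ⟨u', hu'⟩ := hsur ((e0 v).1 j)
        have h1 : v = f j (bv e0 j u') := by
          have h2 := eq_bv e0 (hfm j (bv e0 j u'))
          rw [hf1, if_pos rfl, e0_bv] at h2
          change f j (bv e0 j u') = bv e0 j (z ((Pi.single j u' : Fin w → Fin e → F) j) - (Pi.single j u' : Fin w → Fin e → F) j) at h2
          rw [Pi.single_eq_same, hu'] at h2
          rw [h2]
          exact eq_bv e0 hv
        rw [h1, ← hcomm]
        exact hfm j _
    have hst0 : cl e0 0 ∈ St (lms (Q2 e0 hp.out.pos hz) ∪ {lm s}) := by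
      intro g hg v hv
      rcases hg with ⟨x, ⟨y, hy⟩, rfl⟩ | hg
      · intro i hi
        change (e0 (x • v)).1 i = 0
        rw [hy, Dx_fst, hv i hi, map_zero]
      · rw [Set.mem_singleton_iff] at hg
        rw [hg]
        intro i hi
        rw [hzero, hcomm, (hzero i v).1 (hv i hi), map_zero]
    refine ⟨cl e0 0, bl e0, f, ⟨hst0, fun j hj => ?_, fun j hj => finrank_bl e0 ⟨j, hj⟩, ?_⟩, finrank_cl_zero e0⟩
    · have hfr := finrank_bl e0 ⟨j, hj⟩
      change finrank F (bl e0 j) = e at hfr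
      refine ⟨fun h => ?_, hstb ⟨j, hj⟩, fun x hx v hv => ?_, fun v hv => ?_, fun v hv h0 => ?_, fun y hy hyb => ?_⟩
      · rw [h, finrank_bot] at hfr
        omega
      · have h1 := hfj ⟨j, hj⟩ v
        change f j v = _ at h1
        rw [h1]
        exact x.sub_mem (hx _ (Or.inl ⟨_, ht ⟨j, hj⟩, rfl⟩) v hv) hv
      · rw [VV_bl e0 hj.le] at hv
        exact (hzero ⟨j, hj⟩ v).1 (hv ⟨j, hj⟩ le_rfl)
      · have h1 := (hzero ⟨j, hj⟩ v).2 h0
        have h2 := eq_bv e0 (j := ⟨j, hj⟩) hv
        rw [h1] at h2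
        rw [h2]
        apply e0.injective
        rw [e0_bv, Pi.single_zero, map_zero]
        rfl
      · -- the image in `E`
        let π : Vec F n →ₗ[F] (Fin e → F) := (LinearMap.proj (⟨j, hj⟩ : Fin w)) ∘ₗ (LinearMap.fst F _ _) ∘ₗ (e0 : Vec F n →ₗ[F] Md F w e s0)
        have hπ : ∀ v, π v = (e0 v).1 ⟨j, hj⟩ := fun v => rfl
        rcases irr_of hpF he hz hz1 hE (y.map π) (by
          rintro _ ⟨v, hv, rfl⟩
          refine ⟨t ⟨j, hj⟩ • v, hy _ (Or.inl ⟨_, ht ⟨j, hj⟩, rfl⟩) v hv, ?_⟩
          rw [hπ, hπ, htv, Dx_fst, Pi.single_eq_same, pow_one]) with h1 | h1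
        · left
          rw [eq_bot_iff]
          intro v hv
          have h2 : π v ∈ y.map π := Submodule.mem_map_of_mem hv
          rw [h1, Submodule.mem_bot, hπ] at h2
          have h3 := eq_bv e0 (j := ⟨j, hj⟩) (hyb hv)
          rw [h2] at h3
          rw [Submodule.mem_bot, h3]
          apply e0.injective
          rw [e0_bv, Pi.single_zero, map_zero]
          rfl
        · right
          refine le_antisymm hyb fun v hv => ?_
          have h2 : π v ∈ y.map π := by rw [h1]; trivial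
          obtain ⟨u, hu, h3⟩ := h2
          rw [hπ, hπ] at h3
          have h4 := eq_bv e0 (j := ⟨j, hj⟩) (hyb hu)
          have h5 := eq_bv e0 (j := ⟨j, hj⟩) hv
          rw [h5, ← h3, ← h4]
          exact hu
    · rw [VV_bl e0 le_rfl, eq_top_iff]
      intro v _ i hi
      exact absurd i.2 (not_lt.2 hi)

end Cfsg.Agent.H45.XL
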